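import Cfsg.Agent.Lib.Syl2EA.G2Ord

/-! The subgroup `SO₄⁺(q)` of `G₂(q)` and the Sylow 2-subgroups of `G₂(q)`, `q` odd. -/

set_option autoImplicit false

namespace CfsgLib.Syl2EA

open Subgroup Module Matrix Cfsg.Lie CfsgLib.LAE
open scoped MatrixGroups commutatorElement

variable {F : Type*} [Field F]

local notation "M₂" => Matrix (Fin 2) (Fin 2) F

/-- Cayley-Dickson coordinates -/
def cdE (F : Type*) [Field F] : (Fin 8 → F) ≃ₗ[F] (Matrix (Fin 2) (Fin 2) F × Matrix (Fin 2) (Fin 2) F) where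
  toFun x := (!![x 0, x 1; x 4, x 7], !![x 2, x 6; -x 3, x 5])
  invFun p := ![p.1 0 0, p.1 0 1, p.2 0 0, -p.2 1 0, p.1 1 0, p.2 1 1, p.2 0 1, p.1 1 1]
  map_add' x y := by ext i j <;> fin_cases i <;> fin_cases j <;> simp [add_comm]
  map_smul' r x := by ext i j <;> fin_cases i <;> fin_cases j <;> simp
  left_inv x := by apply ext8 <;> simp
  right_inv p := by ext i j <;> fin_cases i <;> fin_cases j <;> simp

theorem cdE_apply (x : Fin 8 → F) : cdE F x = (!![x 0, x 1; x 4, x 7], !![x 2, x 6; -x 3, x 5]) := rfl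

theorem cdE_mul (x y : Fin 8 → F) : cdE F (zornMul x y) =
    ((cdE F x).1 * (cdE F y).1 + adjugate (cdE F y).2 * (cdE F x).2,
      (cdE F y).2 * (cdE F x).1 + (cdE F x).2 * adjugate (cdE F y).1) := by
  simp only [cdE_apply, adjugate_fin_two_of, zornMul_eq]
  ext i j <;> fin_cases i <;> fin_cases j <;> simp <;> ring

/-- `(a, b)` acts by `(X, Y) ↦ (a X a⁻¹, b Y a⁻¹)` -/
def cdHom (F : Type*) [Field F] : GL (Fin 2) F × GL (Fin 2) F →*
    ((Matrix (Fin 2) (Fin 2) F × Matrix (Fin 2) (Fin 2) F) ≃ₗ[F]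
      (Matrix (Fin 2) (Fin 2) F × Matrix (Fin 2) (Fin 2) F)) where
  toFun g :=
    { toFun := fun p => (g.1.1 * p.1 * g.1⁻¹.1, g.2.1 * p.2 * g.1⁻¹.1)
      invFun := fun p => (g.1⁻¹.1 * p.1 * g.1.1, g.2⁻¹.1 * p.2 * g.1.1)
      map_add' := fun p q => by simp only [Prod.fst_add, Prod.snd_add, mul_add, add_mul, Prod.mk_add_mk]
      map_smul' := fun c p => by
        simp only [Prod.smul_fst, Prod.smul_snd, mul_smul_comm, smul_mul_assoc, Prod.smul_mk, RingHom.id_apply]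
      left_inv := fun p => by
        simp only [mul_assoc, Units.inv_mul, Units.inv_mul_cancel_left, mul_one]
      right_inv := fun p => by
        simp only [mul_assoc, Units.mul_inv, Units.mul_inv_cancel_left, mul_one] }
  map_one' := by ext1 p; simp
  map_mul' g h := by
    ext1 p
    simp only [Prod.fst_mul, Prod.snd_mul, _root_.mul_inv_rev, Units.val_mul, LinearEquiv.mul_apply,
      LinearEquiv.coe_mk, LinearMap.coe_mk, AddHom.coe_mk, mul_assoc]

theorem cdHom_apply (g : GL (Fin 2) F × GL (Fin 2) F) (p : M₂ × M₂) :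
    cdHom F g p = (g.1.1 * p.1 * g.1⁻¹.1, g.2.1 * p.2 * g.1⁻¹.1) := rfl

theorem adjugate_unit (a : GL (Fin 2) F) : adjugate a.1 = a.1.det • a⁻¹.1 := by
  rw [← mul_one (adjugate a.1), ← Units.mul_inv a, ← mul_assoc, adjugate_mul, smul_mul_assoc, one_mul]

/-- the resulting automorphisms of Zorn's algebra -/
def cdZ (F : Type*) [Field F] : GL (Fin 2) F × GL (Fin 2) F →* ((Fin 8 → F) ≃ₗ[F] (Fin 8 → F)) :=
  (linCongr (cdE F).symm).toMonoidHom.comp (cdHom F)

theorem cdE_cdZ (g : GL (Fin 2) F × GL (Fin 2) F) (x : Fin 8 → F) :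
    cdE F (cdZ F g x) = cdHom F g (cdE F x) := (cdE F).apply_symm_apply _

theorem cdZ_mem {g : GL (Fin 2) F × GL (Fin 2) F}
    (h : GeneralLinearGroup.det g.1 = GeneralLinearGroup.det g.2) : cdZ F g ∈ zAut F := by
  intro x y
  have h1 : g.1.1.det = g.2.1.det := congrArg Units.val h
  have h2 : g.1⁻¹.1.det * g.1.1.det = 1 := by rw [← det_mul, Units.inv_mul, det_one]
  apply (cdE F).injective
  rw [cdE_cdZ, cdE_mul, cdE_mul, cdE_cdZ, cdE_cdZ]
  simp only [cdHom_apply, adjugate_mul_distrib, adjugate_unit, inv_inv, mul_add, add_mul, smul_mul_assoc,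
    mul_smul_comm, mul_assoc, Units.inv_mul_cancel_left, smul_smul, ← h1, h2, one_smul, mul_comm g.1.1.det]

theorem cdZ_eq_one {g : GL (Fin 2) F × GL (Fin 2) F} :
    cdZ F g = 1 ↔ g.1 ∈ center (GL (Fin 2) F) ∧ g.2 = g.1 := by
  rw [cdZ, MonoidHom.comp_apply, MulEquiv.coe_toMonoidHom, MulEquiv.map_eq_one_iff]
  constructor
  · intro h
    have h1 := fun p => (cdHom_apply g p).symm.trans (LinearEquiv.congr_fun h p)
    refine ⟨mem_center_iff.2 fun a => Units.ext ?_, Units.ext ?_⟩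
    · exact ((Units.mul_inv_eq_iff_eq_mul _).1 (congrArg Prod.fst (h1 (a.1, 0)))).symm
    · simpa using (Units.mul_inv_eq_iff_eq_mul _).1 (congrArg Prod.snd (h1 (0, 1)))
  · rintro ⟨h1, h2⟩
    obtain ⟨c, hc⟩ := GeneralLinearGroup.mem_center_iff_val_mem_range_scalar.1 h1
    have : ∀ X : M₂, g.1.1 * X * g.1⁻¹.1 = X := fun X => by
      rw [Units.mul_inv_eq_iff_eq_mul, ← hc]; exact (scalar_commute c (fun _ => Commute.all _ _) X).eq
    ext1 p
    rw [cdHom_apply, h2, this, this]; rfl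

theorem g2_ea [Fintype F] (hF : Odd (Fintype.card F)) (P₀ : Sylow 2 (G2 F)) :
    ∀ x : (P₀ : Subgroup (G2 F)), x ^ 2 ∈ commutator (P₀ : Subgroup (G2 F)) := by
  classical
  have : Finite ((Fin 8 → F) ≃ₗ[F] (Fin 8 → F)) := Finite.of_equiv _ Forms.glEquiv.toEquiv
  obtain ⟨C⟩ : Nonempty (Sylow 2 Fˣ) := inferInstance
  obtain ⟨R, hw, hR⟩ := exists_gl2_sylow C
  obtain ⟨χ, hχ⟩ : ∃ χ : GL (Fin 2) F × GL (Fin 2) F →* Fˣ, ∀ g, g ∈ χ.ker ↔
      GeneralLinearGroup.det g.1 = GeneralLinearGroup.det g.2 :=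
    ⟨GeneralLinearGroup.det.comp (MonoidHom.fst _ _) / GeneralLinearGroup.det.comp (MonoidHom.snd _ _),
      fun g => by rw [MonoidHom.mem_ker, MonoidHom.div_apply, div_eq_one]; rfl⟩
  set A := (R : Subgroup (GL (Fin 2) F)).prod (R : Subgroup (GL (Fin 2) F)) ⊓ χ.ker with hA
  have hp : IsPGroup 2 ((R : Subgroup (GL (Fin 2) F)).prod (R : Subgroup (GL (Fin 2) F))) :=
    (isPGroup_prod R.isPGroup' R.isPGroup').of_equiv (prodEquiv _ _).symm
  have hS : IsSylowIn 2 (A.map (cdZ F)) (zAut F) := by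
    refine isSylowIn_of_factorization_le ((hp.to_le inf_le_left).map _) ?_ ((val_zAut hF).trans ?_)
    · rintro _ ⟨g, hg, rfl⟩
      exact cdZ_mem ((hχ g).1 hg.2)
    have h1 := congrArg (fun n => n.factorization 2) (Core.card_map_mul_card_inf_ker χ
      ((R : Subgroup (GL (Fin 2) F)).prod (R : Subgroup (GL (Fin 2) F))))
    have h2 := congrArg (fun n => n.factorization 2) (Core.card_map_mul_card_inf_ker (cdZ F) A)
    have h3 := (Nat.factorization_le_iff_dvd Nat.card_pos.ne' Nat.card_pos.ne').2 (card_subgroup_dvd_card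
      (((R : Subgroup (GL (Fin 2) F)).prod (R : Subgroup (GL (Fin 2) F))).map χ)) 2
    have h4 : Nat.card (A ⊓ (cdZ F).ker : Subgroup _) ∣ Nat.card (center (GL (Fin 2) F)) :=
      card_dvd_of_injective (((MonoidHom.fst _ _).comp (A ⊓ (cdZ F).ker).subtype).codRestrict _
        fun g => (cdZ_eq_one.1 g.2.2).1) fun g h e => by
          have e : g.1.1 = h.1.1 := congrArg Subtype.val e
          exact Subtype.ext (Prod.ext e (by rw [(cdZ_eq_one.1 g.2.2).2, (cdZ_eq_one.1 h.2.2).2, e]))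
    have h5 := (Nat.factorization_le_iff_dvd Nat.card_pos.ne' Nat.card_pos.ne').2 h4 2
    simp only [Nat.factorization_mul Nat.card_pos.ne' Nat.card_pos.ne', Finsupp.add_apply] at h1 h2
    rw [Nat.card_congr (prodEquiv _ _).toEquiv, Nat.card_prod,
      Nat.factorization_mul Nat.card_pos.ne' Nat.card_pos.ne', Finsupp.add_apply, factorization_card_sylow,
      val_gl2 hF, ← hA] at h1
    rw [Classical.sl_card_units] at h3
    rw [Classical.gl_card_center] at h5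
    omega
  refine EA.sylow (ea_of_le ?_) hS (Forms.glEquiv.toMonoidHom.comp (G2 F).subtype)
    (Forms.glEquiv.injective.comp Subtype.val_injective) ?_ P₀
  swap
  · ext g
    refine ⟨fun ⟨x, h⟩ => h ▸ x.2, fun h => ?_⟩
    obtain ⟨g, rfl⟩ := Forms.glEquiv.surjective g
    exact ⟨⟨g, h⟩, rfl⟩
  rintro _ ⟨⟨a, b⟩, ⟨⟨ha, hb⟩, hab⟩, rfl⟩
  have hd := (hχ _).1 hab
  have hc : GeneralLinearGroup.det a ∈ (C : Subgroup Fˣ) := map_mem_sylow C _ R.isPGroup' ha
  generalize hc' : GeneralLinearGroup.det a = c at hc hd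
  have hh := hR ![c, 1] fun i => by fin_cases i <;> simp [hc]
  have hh' : GeneralLinearGroup.det (dg 2 F ![c, 1]) = c := by simp [det_dg]
  have hQ := ea_ker_det hF R
  have hm : ∀ x ∈ (R : Subgroup (GL (Fin 2) F)), cdZ F (x, x) ∈ A.map (cdZ F) :=
    fun x hx => mem_map_of_mem _ ⟨⟨hx, hx⟩, (hχ _).2 rfl⟩
  rw [show (a, b) = (a * (dg 2 F ![c, 1])⁻¹, 1) * (1, b * (dg 2 F ![c, 1])⁻¹) *
    (dg 2 F ![c, 1], dg 2 F ![c, 1]) by simp, map_mul, map_mul]
  refine mul_mem (mul_mem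
    ((hQ.map ((cdZ F).comp (MonoidHom.inl _ _))).le_eaSub ?_ ⟨_, mem_inf.2 ⟨mul_mem ha (inv_mem hh), ?_⟩, rfl⟩)
    ((hQ.map ((cdZ F).comp (MonoidHom.inr _ _))).le_eaSub ?_ ⟨_, mem_inf.2 ⟨mul_mem hb (inv_mem hh), ?_⟩, rfl⟩))
    ⟨hm _ hh, ?_⟩
  · rintro _ ⟨y, hy, rfl⟩
    exact mem_map_of_mem _ ⟨⟨hy.1, one_mem _⟩, (hχ _).2 (hy.2.trans (map_one _).symm)⟩
  · change GeneralLinearGroup.det _ = 1
    rw [map_mul, map_inv, hh', hc', mul_inv_cancel]
  · rintro _ ⟨y, hy, rfl⟩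
    exact mem_map_of_mem _ ⟨⟨one_mem _, hy.1⟩, (hχ _).2 ((map_one _).trans hy.2.symm)⟩
  · change GeneralLinearGroup.det _ = 1
    rw [map_mul, map_inv, hh', ← hd, mul_inv_cancel]
  · have h1 : dg 2 F ![c, 1] ^ 2 = ⁅dg 2 F ![c, 1], sw F⁆ * dg 2 F ![c, c] := by
      rw [commutatorElement_def, mul_assoc _ (sw F), mul_assoc _ (_ * _) (sw F)⁻¹, ← map_inv, sw_conj,
        ← map_mul, ← map_mul, ← map_pow]
      exact congrArg _ (funext fun i => by fin_cases i <;> simp [pow_two])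
    have h2 : cdZ F (dg 2 F ![c, c], dg 2 F ![c, c]) = 1 :=
      cdZ_eq_one.2 ⟨GeneralLinearGroup.mem_center_iff_val_mem_range_scalar.2 ⟨c, by
        rw [coe_dg, scalar_apply]
        exact congrArg _ (funext fun i => by fin_cases i <;> rfl)⟩, rfl⟩
    rw [← map_pow, Prod.pow_mk, h1, ← Prod.mk_mul_mk, map_mul, h2, mul_one,
      show (⁅dg 2 F ![c, 1], sw F⁆, ⁅dg 2 F ![c, 1], sw F⁆) =
        ⁅(dg 2 F ![c, 1], dg 2 F ![c, 1]), (sw F, sw F)⁆ from rfl, map_commutatorElement]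
    exact commutator_mem_commutator (hm _ hh) (hm _ hw)

end CfsgLib.Syl2EA
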